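import Cfsg.Agent.Lib.Calc.Rep

/-!
# Kernel-checked identities in modules for `Sym(n)` (`n ≤ 10`)

A *term* `x` is a number coding a coefficient `cf x` and a permutation table `cd x`; a list of terms `l` acts on a vector
`u` of an additive group `V` of exponent `p` with an action of `Sym(n)` as `ev n l u`.  `stepK` checks identities
`r' · e ∈ (left ideal generated by known relations)` modulo a monomial subgroup (`Mono`).
-/

set_option autoImplicit false

namespace Cfsg.Lib.AltC
open Cfsg.Lib.Calc

/-- Coefficient of a term. -/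
def cf (x : ℕ) : ℕ := Nat.shiftRight x (nat_lit 40)
/-- Permutation table of a term. -/
def cd (x : ℕ) : ℕ := Nat.land x (nat_lit 1099511627775)

variable (n : ℕ) [NeZero n] {V : Type*} [AddCommGroup V] [DistribMulAction (Equiv.Perm (Fin n)) V]

/-- Action of a table. -/
noncomputable def act (c : ℕ) (u : V) : V := toPerm n 4 c • u
/-- Action of a list of terms. -/
noncomputable def ev (l : List ℕ) (u : V) : V := (l.map fun x => cf x • act n (cd x) u).sum
/-- All relations of the list hold for `u`. -/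
def Sat (R : List (List ℕ)) (u : V) : Prop := ∀ r ∈ R, ev n r u = 0

/-- Valid tables. -/
def Ok (c : ℕ) : Prop := ∃ g : Equiv.Perm (Fin n), Rep n 4 (finPt n) g c

variable {n}

theorem Ok.of_permOK {c : ℕ} (h : permOK n 4 c = true) : Ok n c := ⟨_, rep_toPerm h⟩

theorem Ok.rep {c : ℕ} (h : Ok n c) : Rep n 4 (finPt n) (toPerm n 4 c) c := dec_spec h

theorem toPerm_eq {g : Equiv.Perm (Fin n)} {c : ℕ} (h : Rep n 4 (finPt n) g c) : toPerm n 4 c = g :=
  (Ok.rep ⟨g, h⟩).eq_of_faithful (faithful_finPt n) h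

theorem Ok.apK (hn : 2 ≤ n) {c d : ℕ} (hc : Ok n c) (hd : Ok n d) :
    Ok n (apK n 4 c (hot n 4 d)) ∧ toPerm n 4 (apK n 4 c (hot n 4 d)) = toPerm n 4 c * toPerm n 4 d := by
  have := Rep.apK hn (by norm_num) hc.rep hd.rep
  exact ⟨⟨_, this⟩, toPerm_eq this⟩

theorem Ok.mul {c d : ℕ} (hc : Ok n c) (hd : Ok n d) :
    Ok n (mul n 4 c d) ∧ toPerm n 4 (mul n 4 c d) = toPerm n 4 c * toPerm n 4 d := by
  have := Rep.mul hc.rep hd.rep
  exact ⟨⟨_, this⟩, toPerm_eq this⟩

theorem ok_idc (hn : n ≤ 16) : Ok n (idc n 4) ∧ toPerm n 4 (idc n 4) = 1 := by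
  have : Rep n 4 (finPt n) (1 : Equiv.Perm (Fin n)) (idc n 4) := Rep.one (by simpa using hn)
  exact ⟨⟨_, this⟩, toPerm_eq this⟩

theorem ev_nil (u : V) : ev n [] u = 0 := rfl
theorem ev_cons (x : ℕ) (l : List ℕ) (u : V) : ev n (x :: l) u = cf x • act n (cd x) u + ev n l u := by
  simp [ev]

theorem ev_zero (l : List ℕ) : ev n l (0 : V) = 0 := by
  induction l with
  | nil => rfl
  | cons x l ih => rw [ev_cons, ih]; simp [act]

theorem ev_add (l : List ℕ) (u v : V) : ev n l (u + v) = ev n l u + ev n l v := by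
  induction l with
  | nil => simp [ev_nil]
  | cons x l ih => rw [ev_cons, ev_cons, ev_cons, ih]; simp only [act, smul_add]; abel

theorem ev_nsmul (l : List ℕ) (k : ℕ) (u : V) : ev n l (k • u) = k • ev n l u := by
  induction k with
  | zero => simp [ev_zero]
  | succ k ih => rw [succ_nsmul, succ_nsmul, ev_add, ih]

theorem Sat.nil (u : V) : Sat n [] u := fun _ h => by simp at h
theorem Sat.cons {r : List ℕ} {R : List (List ℕ)} {u : V} (h : ev n r u = 0) (hR : Sat n R u) :
    Sat n (r :: R) u := by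
  intro s hs
  rcases List.mem_cons.1 hs with rfl | hs
  exacts [h, hR s hs]
theorem Sat.app {R R' : List (List ℕ)} {u : V} (h : Sat n R u) (h' : Sat n R' u) : Sat n (R ++ R') u := by
  intro s hs
  rcases List.mem_append.1 hs with hs | hs
  exacts [h s hs, h' s hs]
theorem Sat.head {r : List ℕ} {u : V} (h : Sat n [r] u) : ev n r u = 0 := h r (by simp)

theorem mod_nsmul {p : ℕ} (hp : ∀ v : V, p • v = 0) (k : ℕ) (v : V) : (k % p) • v = k • v := by
  conv_rhs => rw [← Nat.div_add_mod k p, add_nsmul, mul_comm, mul_nsmul', hp, nsmul_zero, zero_add]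

/-! ### Accumulator -/

/-- Hash table: `m` slots, `reps` the table of the codes. -/
structure Tb where
  /-- number of slots -/
  m : ℕ
  /-- first modulus -/
  a : ℕ
  /-- second modulus -/
  b : ℕ
  /-- displacements -/
  disp : ℕ
  /-- codes -/
  reps : ℕ

/-- Add the term `c · g` to the accumulator. -/
noncomputable def upd (p m a b disp reps acc g c : ℕ) : ℕ :=
  forceN (Nat.mod (Nat.add (Nat.mod g a) (get (nat_lit 16) disp (Nat.mod g b))) m) fun s =>
    cnd (band (Nat.beq (get (nat_lit 40) reps s) g) (blt s m))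
      (forceN (get (nat_lit 4) acc s) fun d =>
        Nat.xor acc (Nat.shiftLeft (Nat.xor d (Nat.mod (Nat.add d c) p)) (Nat.mul (nat_lit 4) s)))
      (Nat.shiftLeft (nat_lit 1) (Nat.mul (nat_lit 4) m))

variable (n) in
/-- The vector described by an accumulator. -/
noncomputable def Phi (m reps acc : ℕ) (u : V) : V :=
  ∑ s ∈ Finset.range m, get 4 acc s • act n (get 40 reps s) u

theorem get_xor_shift {acc d s : ℕ} (hd : d < 16) (t : ℕ) :
    get 4 (acc ^^^ (d <<< (4 * s))) t = if t = s then get 4 acc s ^^^ d else get 4 acc t := by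
  apply Nat.eq_of_testBit_eq
  intro j
  have hj : 4 ≤ j → d.testBit j = false := fun h =>
    Nat.testBit_lt_two_pow (lt_of_lt_of_le hd (Nat.pow_le_pow_right (n := 2) (by norm_num) h))
  have hj' : ∀ i, 4 ≤ i → d.testBit i = false := fun i h =>
    Nat.testBit_lt_two_pow (lt_of_lt_of_le hd (Nat.pow_le_pow_right (n := 2) (by norm_num) h))
  rw [testBit_get, Nat.testBit_xor, Nat.testBit_shiftLeft]
  by_cases h4 : j < 4
  · split_ifs with h
    · subst h
      rw [Nat.testBit_xor, testBit_get]
      simp [h4]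
    · rw [testBit_get]
      rcases Nat.lt_or_gt_of_ne h with h | h
      · have : ¬ (4 * t + j ≥ 4 * s) := by omega
        simp [this]
      · rw [hj' (4 * t + j - 4 * s) (by omega)]
        simp
  · split_ifs with h
    · rw [Nat.testBit_xor, testBit_get, hj (by omega)]
      simp [h4]
    · rw [testBit_get]; simp [h4]

/-- Step relation between accumulators. -/
def Adds (m reps acc acc' : ℕ) (u w : V) : Prop :=
  acc'.testBit (4 * m) = false → acc.testBit (4 * m) = false ∧ Phi n m reps acc' u = Phi n m reps acc u + w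

theorem Adds.refl (m reps acc : ℕ) (u : V) : Adds (n := n) m reps acc acc u 0 := fun h => ⟨h, by simp⟩

theorem Adds.trans {m reps a b c : ℕ} {u w w' : V} (h : Adds (n := n) m reps a b u w)
    (h' : Adds (n := n) m reps b c u w') : Adds (n := n) m reps a c u (w + w') := fun hc => by
  obtain ⟨h1, h2⟩ := h' hc
  obtain ⟨h3, h4⟩ := h h1
  exact ⟨h3, by rw [h2, h4, add_assoc]⟩

theorem adds_upd {p : ℕ} (hp : ∀ v : V, p • v = 0) (hp0 : 0 < p) (hp1 : p ≤ 16) (m a b disp reps acc g c : ℕ)
    (u : V) : Adds (n := n) m reps acc (upd p m a b disp reps acc g c) u (c • act n g u) := by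
  unfold upd
  rw [forceN_eq]
  generalize Nat.mod (Nat.add (Nat.mod g a) (get (nat_lit 16) disp (Nat.mod g b))) m = s
  cases hb : band (Nat.beq (get (nat_lit 40) reps s) g) (blt s m)
  · intro h
    rw [cnd_false] at h
    change ((1 : ℕ) <<< (4 * m)).testBit (4 * m) = false at h
    rw [Nat.testBit_shiftLeft] at h
    simp at h
  · rw [cnd_true, forceN_eq]
    obtain ⟨h1, h2⟩ := band_eq_true.1 hb
    have h1 : get 40 reps s = g := beq_iff.1 h1
    have h2 : s < m := blt_iff.1 h2
    have hd : get 4 acc s ^^^ ((get 4 acc s + c) % p) < 16 :=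
      Nat.xor_lt_two_pow (n := 4) (get_lt _ _ _) (lt_of_lt_of_le (Nat.mod_lt _ hp0) hp1)
    change Adds m reps acc (acc ^^^ ((get 4 acc s ^^^ ((get 4 acc s + c) % p)) <<< (4 * s))) u _
    intro h
    constructor
    · rw [Nat.testBit_xor, Nat.testBit_shiftLeft, Nat.testBit_lt_two_pow
        (lt_of_lt_of_le hd (Nat.pow_le_pow_right (n := 2) (i := 4) (by norm_num) (by omega)))] at h
      simpa using h
    · unfold Phi
      have hs : s ∈ Finset.range m := Finset.mem_range.2 h2
      rw [← Finset.add_sum_erase _ _ hs, ← Finset.add_sum_erase _ _ hs, get_xor_shift hd, if_pos rfl,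
        ← Nat.xor_assoc, Nat.xor_self, Nat.zero_xor, mod_nsmul hp, add_nsmul, h1]
      rw [Finset.sum_congr rfl (g := fun t => get 4 acc t • act n (get 40 reps t) u) fun t ht => by
        rw [get_xor_shift hd, if_neg (Finset.ne_of_mem_erase ht)]]
      abel

/-! ### Monomial subgroup -/

variable (n) in
/-- An entry of a level: one-hot table `x >>> 8` of `t`, inverse eigenvalue `(x >>> 4) &&& 15`, point `x &&& 15`. -/
def EntOK (u : V) (x : ℕ) : Prop :=
  ∃ t, Ok n t ∧ x >>> 8 = hot n 4 t ∧ ((x >>> 4) &&& 15) • act n t u = u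

variable (n) in
/-- All entries of all levels are sound for `u`. -/
def Mono (lv : List (ℕ × List ℕ)) (u : V) : Prop := ∀ L ∈ lv, EntOK n u L.1 ∧ ∀ x ∈ L.2, EntOK n u x

theorem Mono.nil (u : V) : Mono n [] u := fun _ h => by simp at h

/-- The entry of a level whose point has the least image. -/
noncomputable def sel (g : ℕ) (l : List ℕ) : ℕ → ℕ :=
  List.rec (motive := fun _ => ℕ → ℕ) (fun st => st)
    (fun x _ ih st => forceN (cnd (blt (get (nat_lit 4) g (Nat.land x (nat_lit 15)))
      (get (nat_lit 4) g (Nat.land st (nat_lit 15)))) x st) ih) l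

theorem sel_mem (g : ℕ) (l : List ℕ) (st : ℕ) : sel g l st = st ∨ sel g l st ∈ l := by
  induction l generalizing st with
  | nil => exact Or.inl rfl
  | cons x l ih =>
    change forceN _ (sel g l) = st ∨ forceN _ (sel g l) ∈ x :: l
    rw [forceN_eq]
    cases blt (get (nat_lit 4) g (Nat.land x (nat_lit 15))) (get (nat_lit 4) g (Nat.land st (nat_lit 15)))
    · rw [cnd_false]
      rcases ih st with h | h
      exacts [Or.inl h, Or.inr (List.mem_cons_of_mem _ h)]
    · rw [cnd_true]
      rcases ih x with h | h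
      · right; rw [h]; exact List.mem_cons_self
      · exact Or.inr (List.mem_cons_of_mem _ h)

/-- Normalize `c · g` modulo the monomial subgroup and pass it on. -/
noncomputable def canK (n p : ℕ) (lv : List (ℕ × List ℕ)) (k : ℕ → ℕ → ℕ) : ℕ → ℕ → ℕ :=
  List.rec (motive := fun _ => ℕ → ℕ → ℕ) k
    (fun L _ ih g c => forceN (sel g L.2 L.1) fun x =>
      forceN (apK n (nat_lit 4) g (Nat.shiftRight x (nat_lit 8))) fun g' =>
        forceN (Nat.mod (Nat.mul c (Nat.land (Nat.shiftRight x (nat_lit 4)) (nat_lit 15))) p) fun c' => ih g' c') lv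

theorem canK_cons (n p : ℕ) (L : ℕ × List ℕ) (lv : List (ℕ × List ℕ)) (k : ℕ → ℕ → ℕ) (g c : ℕ) :
    canK n p (L :: lv) k g c =
      canK n p lv k (apK n 4 g (sel g L.2 L.1 >>> 8)) (c * (sel g L.2 L.1 >>> 4 &&& 15) % p) := by
  have : canK n p (L :: lv) k g c = forceN (sel g L.2 L.1) fun x =>
      forceN (apK n (nat_lit 4) g (Nat.shiftRight x (nat_lit 8))) fun g' =>
        forceN (Nat.mod (Nat.mul c (Nat.land (Nat.shiftRight x (nat_lit 4)) (nat_lit 15))) p)
          fun c' => canK n p lv k g' c' := rfl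
  rw [this]
  simp only [forceN_eq]
  rfl

theorem canK_spec {p : ℕ} (hp : ∀ v : V, p • v = 0) (hn : 2 ≤ n) {u : V} {lv : List (ℕ × List ℕ)}
    (hm : Mono n lv u) (k : ℕ → ℕ → ℕ) {g : ℕ} (hg : Ok n g) (c : ℕ) :
    ∃ g' c', canK n p lv k g c = k g' c' ∧ c' • act n g' u = c • act n g u := by
  induction lv generalizing g c with
  | nil => exact ⟨g, c, rfl, rfl⟩
  | cons L lv ih =>
    have hL := hm L List.mem_cons_self
    have hx : EntOK n u (sel g L.2 L.1) := by
      rcases sel_mem g L.2 L.1 with h | h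
      · rw [h]; exact hL.1
      · exact hL.2 _ h
    obtain ⟨t, ht, e1, e2⟩ := hx
    obtain ⟨h1, h2⟩ := hg.apK hn ht
    obtain ⟨g', c', e3, e4⟩ := ih (fun L' h => hm L' (List.mem_cons_of_mem _ h)) h1
      ((c * ((sel g L.2 L.1 >>> 4) &&& 15)) % p)
    refine ⟨g', c', ?_, ?_⟩
    · rw [← e3, ← e1]
      exact canK_cons n p L lv k g c
    · rw [e4, mod_nsmul hp, mul_smul, act, h2, mul_smul, ← smul_comm (toPerm n 4 g)]
      rw [act] at e2
      rw [e2, act]

/-! ### Products -/

/-- Add `a · (c h)` where `q` is the one-hot form of `h`. -/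
noncomputable def rowA (n p : ℕ) (lv : List (ℕ × List ℕ)) (m a b disp reps q c : ℕ) (l : List ℕ) : ℕ → ℕ :=
  List.rec (motive := fun _ => ℕ → ℕ) (fun acc => acc)
    (fun x _ ih acc => forceN (apK n (nat_lit 4) (cd x) q) fun g => forceN (Nat.mod (Nat.mul (cf x) c) p) fun c' =>
      forceN (canK n p lv (upd p m a b disp reps acc) g c') ih) l

/-- Add the product of two lists of terms. -/
noncomputable def prodA (n p : ℕ) (lv : List (ℕ × List ℕ)) (m a b disp reps : ℕ) (l r : List ℕ) : ℕ → ℕ :=
  List.rec (motive := fun _ => ℕ → ℕ) (fun acc => acc)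
    (fun y _ ih acc => forceN (hot n (nat_lit 4) (cd y)) fun q => forceN (cf y) fun c =>
      forceN (rowA n p lv m a b disp reps q c l acc) ih) r

/-- All tables of a list are permutations. -/
noncomputable def okL (n : ℕ) (l : List ℕ) : Bool := allL l fun x => permOK n (nat_lit 4) (cd x)

theorem okL_spec {l : List ℕ} (h : okL n l = true) : ∀ x ∈ l, Ok n (cd x) :=
  fun x hx => Ok.of_permOK (allL_iff.1 h x hx)

section
variable {p : ℕ} (hp : ∀ v : V, p • v = 0) (hp0 : 0 < p) (hp1 : p ≤ 16) (hn : 2 ≤ n) {u : V}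
  {lv : List (ℕ × List ℕ)} (hm : Mono n lv u) (m a b disp reps : ℕ)
include hp hp0 hp1 hn hm

theorem adds_rowA {h : ℕ} (hh : Ok n h) (c : ℕ) (l : List ℕ) (hl : ∀ x ∈ l, Ok n (cd x)) (acc : ℕ) :
    Adds (n := n) m reps acc (rowA n p lv m a b disp reps (hot n 4 h) c l acc) u (ev n l (c • act n h u)) := by
  induction l generalizing acc with
  | nil => exact Adds.refl _ _ _ _
  | cons x l ih =>
    have e : rowA n p lv m a b disp reps (hot n 4 h) c (x :: l) acc =
        forceN (apK n 4 (cd x) (hot n 4 h)) fun g => forceN (cf x * c % p) fun c' =>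
          forceN (canK n p lv (upd p m a b disp reps acc) g c') (rowA n p lv m a b disp reps (hot n 4 h) c l) := rfl
    rw [e, forceN_eq, forceN_eq, forceN_eq, ev_cons]
    obtain ⟨h1, h2⟩ := (hl x List.mem_cons_self).apK hn hh
    obtain ⟨g', c', e3, e4⟩ := canK_spec hp hn hm (upd p m a b disp reps acc) h1 (cf x * c % p)
    refine Adds.trans ?_ (ih (fun y hy => hl y (List.mem_cons_of_mem _ hy)) _)
    rw [e3]
    have := adds_upd (n := n) hp hp0 hp1 m a b disp reps acc g' c' u
    rw [e4, mod_nsmul hp, act, h2, mul_smul, mul_smul, smul_comm c] at this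
    exact this

theorem adds_prodA (l : List ℕ) (hl : ∀ x ∈ l, Ok n (cd x)) (r : List ℕ) (hr : ∀ x ∈ r, Ok n (cd x)) (acc : ℕ) :
    Adds (n := n) m reps acc (prodA n p lv m a b disp reps l r acc) u (ev n l (ev n r u)) := by
  induction r generalizing acc with
  | nil => rw [ev_nil, ev_zero]; exact Adds.refl _ _ _ _
  | cons y r ih =>
    have e : prodA n p lv m a b disp reps l (y :: r) acc =
        forceN (hot n 4 (cd y)) fun q => forceN (cf y) fun c =>
          forceN (rowA n p lv m a b disp reps q c l acc) (prodA n p lv m a b disp reps l r) := rfl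
    rw [e, forceN_eq, forceN_eq, forceN_eq, ev_cons, ev_add]
    exact (adds_rowA hp hp0 hp1 hn hm m a b disp reps (hr y List.mem_cons_self) _ l hl acc).trans
      (ih (fun y hy => hr y (List.mem_cons_of_mem _ hy)) _)

end

/-- Entry `j` of a list of relations. -/
noncomputable def nth (R : List (List ℕ)) : ℕ → List ℕ :=
  List.rec (motive := fun _ => ℕ → List ℕ) (fun _ => [])
    (fun r _ ih j => Nat.rec (motive := fun _ => List ℕ) r (fun i _ => ih i) j) R

theorem Sat.nth {R : List (List ℕ)} {u : V} (h : Sat n R u) (j : ℕ) : ev n (nth R j) u = 0 := by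
  induction R generalizing j with
  | nil => rfl
  | cons r R ih =>
    cases j with
    | zero => exact h r List.mem_cons_self
    | succ j => exact ih (fun s hs => h s (List.mem_cons_of_mem _ hs)) j

/-- Add the multiples `a · R j` for `(j, a)` in the certificate; `none` of the tables may be invalid. -/
noncomputable def certA (n p : ℕ) (lv : List (ℕ × List ℕ)) (m a b disp reps : ℕ) (R : List (List ℕ))
    (A : List (ℕ × List ℕ)) : ℕ → Bool :=
  List.rec (motive := fun _ => ℕ → Bool) (fun acc => Nat.beq acc (nat_lit 0))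
    (fun z _ ih acc => band (band (okL n z.2) (okL n (nth R z.1)))
      (forceB (prodA n p lv m a b disp reps z.2 (nth R z.1) acc) ih)) A

/-- Check `r · e + ∑ a · R j = 0` for each `r` of the list `T`. -/
noncomputable def chkL (n p : ℕ) (lv : List (ℕ × List ℕ)) (m a b disp reps : ℕ) (R : List (List ℕ)) (e : List ℕ)
    (T : List (List ℕ)) : List (List (ℕ × List ℕ)) → Bool :=
  List.rec (motive := fun _ => List (List (ℕ × List ℕ)) → Bool) (fun _ => true)
    (fun r _ ih As => List.rec (motive := fun _ => Bool) false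
      (fun A As' _ => band (band (okL n r)
        (forceB (prodA n p lv m a b disp reps r e (nat_lit 0)) (certA n p lv m a b disp reps R A))) (ih As')) As) T

/-- The check of a step. -/
noncomputable def chk (n p : ℕ) (lv : List (ℕ × List ℕ)) (tb : Tb) (R : List (List ℕ)) (e : List ℕ)
    (T : List (List ℕ)) (As : List (List (ℕ × List ℕ))) : Bool :=
  band (okL n e) (forceB tb.m fun m => forceB tb.a fun a => forceB tb.b fun b => forceB tb.disp fun disp =>
    forceB tb.reps fun reps => chkL n p lv m a b disp reps R e T As)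

/-- Standing assumptions. -/
structure Ctx (n p : ℕ) (V : Type*) [AddCommGroup V] : Prop where
  hp : ∀ v : V, p • v = 0
  hp0 : 2 ≤ p
  hp1 : p ≤ 16
  hn : 2 ≤ n
  hn' : n ≤ 10

theorem Phi_zero (m reps : ℕ) (u : V) : Phi n m reps 0 u = 0 := by
  simp [Phi, get_eq]

theorem certA_spec {p : ℕ} (C : Ctx n p V) {u : V} {lv : List (ℕ × List ℕ)} (hm : Mono n lv u)
    (m a b disp reps : ℕ) {R : List (List ℕ)} (hR : Sat n R u) (A : List (ℕ × List ℕ)) (acc : ℕ)
    (h : certA n p lv m a b disp reps R A acc = true) : acc.testBit (4 * m) = false ∧ Phi n m reps acc u = 0 := by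
  induction A generalizing acc with
  | nil =>
    have : acc = 0 := beq_iff.1 h
    subst this
    exact ⟨by simp, Phi_zero _ _ _⟩
  | cons z A ih =>
    obtain ⟨h1, h2⟩ := band_eq_true.1 h
    obtain ⟨h3, h4⟩ := band_eq_true.1 h1
    rw [forceB_eq] at h2
    obtain ⟨h5, h6⟩ := ih _ h2
    obtain ⟨h7, h8⟩ := adds_prodA C.hp (by have := C.hp0; omega) C.hp1 C.hn hm m a b disp reps z.2 (okL_spec h3) _
      (okL_spec h4) acc h5
    rw [h6, hR.nth, ev_zero, add_zero] at h8
    exact ⟨h7, h8.symm⟩

theorem stepK {p : ℕ} (C : Ctx n p V) {u : V} {lv : List (ℕ × List ℕ)} (hm : Mono n lv u)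
    {R : List (List ℕ)} (hR : Sat n R u) (tb : Tb) (e : List ℕ) (T : List (List ℕ))
    (As : List (List (ℕ × List ℕ))) (h : chk n p lv tb R e T As = true) : Sat n T (ev n e u) := by
  have he := (band_eq_true.1 h).1
  replace h := (band_eq_true.1 h).2
  simp only [forceB_eq] at h
  induction T generalizing As with
  | nil => exact Sat.nil _
  | cons r T ih =>
    cases As with
    | nil => exact absurd h Bool.false_ne_true
    | cons A As =>
      obtain ⟨h1, h2⟩ := band_eq_true.1 h
      obtain ⟨h3, h4⟩ := band_eq_true.1 h1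
      rw [forceB_eq] at h4
      refine Sat.cons ?_ (ih As h2)
      obtain ⟨h5, h6⟩ := certA_spec C hm _ _ _ _ _ hR A _ h4
      have := (adds_prodA C.hp (by have := C.hp0; omega) C.hp1 C.hn hm tb.m tb.a tb.b tb.disp tb.reps r
        (okL_spec h3) e (okL_spec he) 0 h5).2
      rw [h6, Phi_zero, zero_add] at this
      exact this.symm

end Cfsg.Lib.AltC
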