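import Cfsg.Agent.Lib.AltC.Eng

/-!
# Kernel-checked identities in modules for `Sym(n)`: monomial levels, the hypothesis `HV`, derived rules
-/

set_option autoImplicit false

namespace Cfsg.Lib.AltC
open Cfsg.Lib.Calc

variable {n : ℕ} [NeZero n] {V : Type*} [AddCommGroup V] [DistribMulAction (Equiv.Perm (Fin n)) V]

/-- The term `1 · id`. -/
noncomputable def one (n : ℕ) : ℕ := Nat.add (nat_lit 1099511627776) (idc n (nat_lit 4))

theorem ev_one {p : ℕ} (C : Ctx n p V) (u : V) : ev n [one n] u = u := by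
  have h1 : idc n 4 < 2 ^ 40 :=
    lt_of_lt_of_le (idc_lt (n := n) (w := 4) (by have := C.hn'; omega))
      (Nat.pow_le_pow_right (by norm_num) (by have := C.hn'; omega))
  have h2 : cf (one n) = 1 := by
    change (2 ^ 40 + idc n 4) >>> 40 = 1
    rw [Nat.shiftRight_eq_div_pow]; omega
  have h3 : cd (one n) = idc n 4 := by
    change (2 ^ 40 + idc n 4) &&& (2 ^ 40 - 1) = _
    rw [Nat.and_two_pow_sub_one_eq_mod]; omega
  rw [ev_cons, ev_nil, h2, h3, act, (ok_idc (by have := C.hn'; omega)).2]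
  simp

/-- New relations for the same vector. -/
theorem stepD {p : ℕ} (C : Ctx n p V) {u : V} {lv : List (ℕ × List ℕ)} (hm : Mono n lv u)
    {R : List (List ℕ)} (hR : Sat n R u) (tb : Tb) (T : List (List ℕ))
    (As : List (List (ℕ × List ℕ))) (h : chk n p lv tb R [one n] T As = true) : Sat n T u := by
  have := stepK C hm hR tb _ T As h
  rwa [ev_one C] at this

/-- The vector vanishes. -/
theorem stepZ {p : ℕ} (C : Ctx n p V) {u : V} {lv : List (ℕ × List ℕ)} (hm : Mono n lv u)
    {R : List (List ℕ)} (hR : Sat n R u) (tb : Tb)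
    (A : List (ℕ × List ℕ)) (h : chk n p lv tb R [one n] [[one n]] [A] = true) : u = 0 := by
  have := (stepD C hm hR tb _ _ h).head
  rwa [ev_one C] at this

/-- The check for `stepF`. -/
noncomputable def chkF (n p : ℕ) (lv : List (ℕ × List ℕ)) (tb : Tb) (r e s : List ℕ) : Bool :=
  band (band (band (okL n r) (okL n e)) (band (okL n s) (okL n [one n])))
    (forceB tb.m fun m => forceB tb.a fun a => forceB tb.b fun b => forceB tb.disp fun disp =>
      forceB tb.reps fun reps => forceB (prodA n p lv m a b disp reps r e (nat_lit 0)) fun acc =>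
        Nat.beq (prodA n p lv m a b disp reps [one n] s acc) (nat_lit 0))

/-- Flatten a product: `r (e u) = 0` and `r e + s = 0` give `s u = 0`. -/
theorem stepF {p : ℕ} (C : Ctx n p V) {u : V} {lv : List (ℕ × List ℕ)} (hm : Mono n lv u) (tb : Tb)
    {r e : List ℕ} (h0 : ev n r (ev n e u) = 0) (s : List ℕ) (h : chkF n p lv tb r e s = true) :
    ev n s u = 0 := by
  obtain ⟨h1, h2⟩ := band_eq_true.1 h
  obtain ⟨h3, h4⟩ := band_eq_true.1 h1
  obtain ⟨h5, h6⟩ := band_eq_true.1 h3
  obtain ⟨h7, h8⟩ := band_eq_true.1 h4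
  simp only [forceB_eq] at h2
  have h9 := beq_iff.1 h2
  have := (adds_prodA C.hp (by have := C.hp0; omega) C.hp1 C.hn hm tb.m tb.a tb.b tb.disp tb.reps r
    (okL_spec h5) e (okL_spec h6) 0).trans (adds_prodA C.hp (by have := C.hp0; omega) C.hp1 C.hn hm tb.m tb.a tb.b
      tb.disp tb.reps [one n] (okL_spec h8) s (okL_spec h7) _)
  erw [h9] at this
  have := (this (by simp)).2
  rw [h0, zero_add, ev_one C] at this
  erw [Phi_zero] at this
  simpa using this.symm

/-- Is `r` of the form `g - c`? -/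
noncomputable def monK {α : Type} (n p : ℕ) (r : List ℕ) (d : α) (k : ℕ → ℕ → α) : α :=
  List.rec (motive := fun _ => α) d (fun x t _ => List.rec (motive := fun _ => α) d
    (fun y t' _ => List.rec (motive := fun _ => α)
      (Bool.rec d (k (cd x) (Nat.sub p (cf y)))
        (band (band (Nat.beq (cf x) (nat_lit 1)) (Nat.beq (cd y) (idc n (nat_lit 4))))
          (band (permOK n (nat_lit 4) (cd x)) (Nat.ble (cf y) p))))
      (fun _ _ _ => d) t') t) r

theorem monK_spec {p : ℕ} (C : Ctx n p V) {u : V} {r : List ℕ} (hr : ev n r u = 0) {k : ℕ → ℕ → Bool}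
    (h : monK n p r false k = true) : ∃ g c, Ok n g ∧ act n g u = c • u ∧ k g c = true := by
  match r, hr, h with
  | [], _, h => exact absurd h Bool.false_ne_true
  | [_], _, h => exact absurd h Bool.false_ne_true
  | _ :: _ :: _ :: _, _, h => exact absurd h Bool.false_ne_true
  | [x, y], hr, h =>
    change Bool.rec false (k (cd x) (p - cf y)) (band (band (Nat.beq (cf x) 1) (Nat.beq (cd y) (idc n 4)))
      (band (permOK n 4 (cd x)) (Nat.ble (cf y) p))) = true at h
    cases hb : band (band (Nat.beq (cf x) 1) (Nat.beq (cd y) (idc n 4)))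
      (band (permOK n 4 (cd x)) (Nat.ble (cf y) p))
    · rw [hb] at h; exact absurd h Bool.false_ne_true
    · rw [hb] at h
      obtain ⟨h1, h2⟩ := band_eq_true.1 hb
      obtain ⟨h3, h4⟩ := band_eq_true.1 h1
      obtain ⟨h5, h6⟩ := band_eq_true.1 h2
      refine ⟨_, _, Ok.of_permOK h5, ?_, h⟩
      rw [ev_cons, ev_cons, ev_nil, beq_iff.1 h3, beq_iff.1 h4, act, act,
        (ok_idc (by have := C.hn'; omega)).2, one_smul, one_smul, add_zero] at hr
      have h7 := C.hp u
      rw [← Nat.sub_add_cancel (ble_iff.1 h6), add_nsmul] at h7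
      rw [act]
      exact add_right_cancel (hr.trans h7.symm)

/-- Product of the monomial relations along a word. -/
noncomputable def runW (n p : ℕ) (R : List (List ℕ)) (k : ℕ → ℕ → Bool) (w : List ℕ) : ℕ → ℕ → Bool :=
  List.rec (motive := fun _ => ℕ → ℕ → Bool) k
    (fun j _ ih g c => monK n p (nth R j) false fun h d =>
      forceB (mul n (nat_lit 4) g h) fun g' => forceB (Nat.mod (Nat.mul c d) p) fun c' => ih g' c') w

theorem runW_spec {p : ℕ} (C : Ctx n p V) {u : V} {R : List (List ℕ)} (hR : Sat n R u) {k : ℕ → ℕ → Bool}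
    (w : List ℕ) {g c : ℕ} (hg : Ok n g) (hc : act n g u = c • u) (h : runW n p R k w g c = true) :
    ∃ g c, Ok n g ∧ act n g u = c • u ∧ k g c = true := by
  induction w generalizing g c with
  | nil => exact ⟨g, c, hg, hc, h⟩
  | cons j w ih =>
    have h' : monK n p (nth R j) false (fun h d => forceB (mul n 4 g h) fun g' =>
      forceB (c * d % p) fun c' => runW n p R k w g' c') = true := h
    obtain ⟨g', c', h1, h2, h3⟩ := monK_spec C (hR.nth j) h'
    simp only [forceB_eq] at h3
    obtain ⟨h4, h5⟩ := hg.mul h1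
    refine ih h4 ?_ h3
    change _ = (c * c' % p) • u
    rw [act] at hc h2
    rw [mod_nsmul C.hp, act, h5, mul_smul, h2, smul_comm, hc, ← mul_smul, mul_comm]

/-- Check of an entry against a word. -/
noncomputable def entOK (n p : ℕ) (R : List (List ℕ)) (x : ℕ) (w : List ℕ) : Bool :=
  runW n p R (fun g c => band (Nat.beq (Nat.shiftRight x (nat_lit 8)) (hot n (nat_lit 4) g))
    (Nat.beq (Nat.mod (Nat.mul (Nat.land (Nat.shiftRight x (nat_lit 4)) (nat_lit 15)) c) p) (nat_lit 1))) w
    (idc n (nat_lit 4)) (nat_lit 1)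

theorem entOK_spec {p : ℕ} (C : Ctx n p V) {u : V} {R : List (List ℕ)} (hR : Sat n R u) {x : ℕ} {w : List ℕ}
    (h : entOK n p R x w = true) : EntOK n u x := by
  have h0 := ok_idc (n := n) (by have := C.hn'; omega)
  obtain ⟨g, c, h1, h2, h3⟩ := runW_spec C hR w h0.1 (by rw [act, h0.2]; simp) h
  obtain ⟨h4, h5⟩ := band_eq_true.1 h3
  refine ⟨g, h1, beq_iff.1 h4, ?_⟩
  have h6 : ((x >>> 4 &&& 15) * c) % p = 1 := beq_iff.1 h5
  rw [h2, ← mul_smul, ← mod_nsmul C.hp, h6, one_smul]

/-- Check of a list of entries. -/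
noncomputable def entsOK (n p : ℕ) (R : List (List ℕ)) (l : List ℕ) : List (List ℕ) → Bool :=
  List.rec (motive := fun _ => List (List ℕ) → Bool) (fun _ => true)
    (fun x _ ih W => List.rec (motive := fun _ => Bool) false
      (fun w W' _ => band (entOK n p R x w) (ih W')) W) l

theorem entsOK_spec {p : ℕ} (C : Ctx n p V) {u : V} {R : List (List ℕ)} (hR : Sat n R u) (l : List ℕ)
    (W : List (List ℕ)) (h : entsOK n p R l W = true) : ∀ x ∈ l, EntOK n u x := by
  induction l generalizing W with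
  | nil => simp
  | cons x l ih =>
    cases W with
    | nil => exact absurd h Bool.false_ne_true
    | cons w W =>
      obtain ⟨h1, h2⟩ := band_eq_true.1 h
      intro y hy
      rcases List.mem_cons.1 hy with rfl | hy
      exacts [entOK_spec C hR h1, ih W h2 y hy]

theorem Mono.cons {p : ℕ} (C : Ctx n p V) {u : V} {R : List (List ℕ)} (hR : Sat n R u) {x : ℕ} {l : List ℕ}
    (W : List (List ℕ)) (h : entsOK n p R (x :: l) W = true) {lv : List (ℕ × List ℕ)} (hm : Mono n lv u) :
    Mono n ((x, l) :: lv) u := by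
  intro L hL
  rcases List.mem_cons.1 hL with rfl | hL
  · have := entsOK_spec C hR _ W h
    exact ⟨this x List.mem_cons_self, fun y hy => this y (List.mem_cons_of_mem _ hy)⟩
  · exact hm L hL

variable (n V) in
/-- No `(2,3,5)`- or `(2,3,7)`-generated subgroup fixes a non-zero vector. -/
def HV : Prop := ∀ a b : Equiv.Perm (Fin n), a ≠ 1 → a ^ 2 = 1 → b ^ 3 = 1 → (a * b) ^ 35 = 1 →
  ∀ v : V, a • v = v → b • v = v → v = 0

/-- Power of a table. -/
noncomputable def pw (n c k : ℕ) : ℕ :=
  Nat.rec (motive := fun _ => ℕ) (idc n (nat_lit 4)) (fun _ ih => forceN ih fun d => mul n (nat_lit 4) d c) k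

theorem pw_spec (hn : n ≤ 16) {c : ℕ} (hc : Ok n c) (k : ℕ) :
    Ok n (pw n c k) ∧ toPerm n 4 (pw n c k) = toPerm n 4 c ^ k := by
  induction k with
  | zero => exact ok_idc hn
  | succ k ih =>
    have e : pw n c (k + 1) = forceN (pw n c k) fun d => mul n 4 d c := rfl
    rw [e, forceN_eq, pow_succ, ← ih.2]
    exact ih.1.mul hc

/-- Check for an application of `HV`. -/
noncomputable def hvOK (n p : ℕ) (r s : List ℕ) : Bool :=
  monK n p r false fun a c => monK n p s false fun b d =>
    band (band (band (Nat.beq c (nat_lit 1)) (Nat.beq d (nat_lit 1)))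
        (Bool.rec true false (Nat.beq a (idc n (nat_lit 4)))))
      (band (band (Nat.beq (pw n a (nat_lit 2)) (idc n (nat_lit 4))) (Nat.beq (pw n b (nat_lit 3)) (idc n (nat_lit 4))))
        (forceB (mul n (nat_lit 4) a b) fun ab => Nat.beq (pw n ab (nat_lit 35)) (idc n (nat_lit 4))))

theorem hv {p : ℕ} (C : Ctx n p V) (hV : HV n V) {r s : List ℕ} (h : hvOK n p r s = true) (u : V)
    (hR : Sat n [r, s] u) : u = 0 := by
  have hn : n ≤ 16 := by have := C.hn'; omega
  obtain ⟨a, c, ha, ea, h⟩ := monK_spec C (hR r (by simp)) h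
  obtain ⟨b, d, hb, eb, h⟩ := monK_spec C (hR s (by simp)) h
  obtain ⟨h1, h2⟩ := band_eq_true.1 h
  obtain ⟨h3, h4⟩ := band_eq_true.1 h1
  obtain ⟨h5, h6⟩ := band_eq_true.1 h3
  obtain ⟨h7, h8⟩ := band_eq_true.1 h2
  obtain ⟨h9, h10⟩ := band_eq_true.1 h7
  rw [forceB_eq] at h8
  have hc : c = 1 := beq_iff.1 h5
  have hd : d = 1 := beq_iff.1 h6
  rw [hc, one_smul] at ea
  rw [hd, one_smul] at eb
  refine hV (toPerm n 4 a) (toPerm n 4 b) ?_ ?_ ?_ ?_ u ea eb
  · rw [← (ok_idc hn).2]
    refine Rep.ne_of_ne (inj_finPt n) ha.rep (ok_idc hn).1.rep ?_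
    change Bool.rec true false (Nat.beq a (idc n 4)) = true at h4
    cases h : Nat.beq a (idc n 4)
    · rfl
    · rw [h] at h4; exact absurd h4 Bool.false_ne_true
  · rw [← (pw_spec hn ha 2).2, ← (ok_idc hn).2]; exact congrArg _ (beq_iff.1 h9)
  · rw [← (pw_spec hn hb 3).2, ← (ok_idc hn).2]; exact congrArg _ (beq_iff.1 h10)
  · rw [← (ha.mul hb).2, ← (pw_spec hn (ha.mul hb).1 35).2, ← (ok_idc hn).2]
    exact congrArg _ (beq_iff.1 h8)

end Cfsg.Lib.AltC
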