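import Cfsg.Agent.Lib.AltC.Red
import Cfsg.Agent.Lib.AltC.A9b
import Cfsg.Agent.Lib.AltC.A10c

/-!
# Groups whose non-central `p`-elements have solvable centralizers have no large alternating section
-/

set_option autoImplicit false

namespace Cfsg.Lib.AltC
open Subgroup Equiv

universe u

theorem even_of_rel {α : Type*} [Fintype α] [DecidableEq α] {a b : Perm α} (hb : b ^ 3 = 1)
    (hab : (a * b) ^ 35 = 1) : a ∈ alternatingGroup α ∧ b ∈ alternatingGroup α := by
  have key : ∀ (g : Perm α) (k : ℕ), g ^ (2 * k + 1) = 1 → g ∈ alternatingGroup α := fun g k h => by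
    have := congrArg Perm.sign h
    rwa [map_pow, map_one, pow_succ, pow_mul, Int.units_sq, one_pow, one_mul] at this
  have h1 := key b 1 hb
  exact ⟨(mul_mem_cancel_right h1).1 (key _ 17 hab), h1⟩

theorem not_center {α : Type*} [Fintype α] [DecidableEq α] (h4 : 4 ≤ Nat.card α) {H : Type*} [Group H]
    {π : H →* Perm α} (hπ : π.range = alternatingGroup α) {x : H} (hx : π x ≠ 1) : x ∉ center H := by
  intro hc
  have h1 : (⟨π x, hπ ▸ ⟨x, rfl⟩⟩ : alternatingGroup α) ∈ center (alternatingGroup α) := by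
    rw [mem_center_iff]
    rintro ⟨g, hg⟩
    obtain ⟨g, rfl⟩ : g ∈ π.range := hπ ▸ hg
    exact Subtype.ext (by simp only [coe_mul]; rw [← map_mul, ← map_mul, mem_center_iff.1 hc g])
  rw [alternatingGroup.center_eq_bot h4, mem_bot] at h1
  exact hx (congrArg Subtype.val h1)

/-- The coprime case: a `p`-element of `Alt(α)` centralized by a non-solvable `p'`-subgroup. -/
theorem false_of_coprime {p : ℕ} (hp : p.Prime) {α : Type*} [Fintype α] [DecidableEq α] (h4 : 4 ≤ Nat.card α)
    {H : Type*} [Group H] [Finite H] (h : SC p H) {π : H →* Perm α} (hπ : π.range = alternatingGroup α)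
    (hK : IsPGroup p π.ker) {x a b : Perm α} (hx : x ∈ alternatingGroup α) (hx1 : x ≠ 1) (hxp : x ^ p = 1)
    (h0 : a ≠ 1) (ha : a ^ 2 = 1) (hb : b ^ 3 = 1) (hab : (a * b) ^ 35 = 1) {L : Subgroup (Perm α)}
    (haL : a ∈ L) (hbL : b ∈ L) (hL : ∀ g ∈ L, g * x = x * g) (hc : π.ker = ⊥ ∨ p.Coprime (Nat.card L)) : False := by
  haveI := Fact.mk hp
  obtain ⟨k, hk⟩ := IsPGroup.iff_card.1 hK
  set D := L.comap π
  have hind : (π.ker.subgroupOf D).index ∣ Nat.card L := by
    rw [← MonoidHom.ker_domRestrict, index_ker, MonoidHom.domRestrict_range]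
    exact card_dvd_of_le (map_comap_le _ _)
  have hle : π.ker ≤ D := ker_le_comap _ _
  have hcop : (Nat.card π.ker).Coprime (π.ker.subgroupOf D).index := by
    rcases hc with hc | hc
    · rw [hc]; simp
    · rw [hk]; exact (hc.pow_left k).coprime_dvd_right hind
  obtain ⟨Q, hQ⟩ := exists_right_complement'_of_coprime (N := π.ker.subgroupOf D) (by
    rwa [Nat.card_congr (subgroupOfEquivOfLe hle).toEquiv])
  have hmem : ∀ g ∈ L, g ∈ alternatingGroup α → g ∈ (Q.map D.subtype).map π := by
    intro g hg hg'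
    obtain ⟨g, rfl⟩ : g ∈ π.range := hπ ▸ hg'
    obtain ⟨⟨k, q⟩, e⟩ := (hQ.existsUnique (⟨g, hg⟩ : D)).exists
    refine ⟨q, mem_map_of_mem _ q.2, ?_⟩
    have e' : ((k : D) : H) * ((q : D) : H) = g := congrArg Subtype.val e
    have : π ((k : D) : H) = 1 := k.2
    rw [← e', map_mul, this, one_mul]
  obtain ⟨y, rfl⟩ : x ∈ π.range := hπ ▸ hx
  obtain ⟨z, hz, hz'⟩ := Coprime.exists_mul_mem_centralizer' (A := Q.map D.subtype) (N := π.ker) (k := y)
    (by rw [normalizer_eq_top]; exact le_top)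
    (by rw [card_map_of_injective D.subtype_injective, ← hQ.symm.index_eq_card]; exact hcop.symm)
    (Or.inr (by haveI := hK.isNilpotent; infer_instance)) (by
      rintro _ ⟨q, -, rfl⟩
      rw [MonoidHom.mem_ker, map_mul, map_mul, map_mul, map_inv, map_inv, hL (π (D.subtype q)) q.2]
      simp)
  have e : π (z * y) = π y := by rw [map_mul, MonoidHom.mem_ker.1 hz, one_mul]
  have h1 := h (z * y) (not_center h4 hπ (by rwa [e])) (by
    have h2 : (z * y) ^ p ∈ π.ker := by rw [MonoidHom.mem_ker, map_pow, e, hxp]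
    obtain ⟨j, hj⟩ := hK ⟨_, h2⟩
    have h3 : orderOf (z * y) ∣ p ^ (j + 1) := by
      rw [orderOf_dvd_iff_pow_eq_one, pow_succ', pow_mul]
      exact congrArg Subtype.val hj
    obtain ⟨i, -, hi⟩ := (Nat.dvd_prime_pow hp).1 h3
    exact ⟨i, hi⟩)
  have h2 : Q.map D.subtype ≤ centralizer {z * y} := fun q hq => mem_centralizer_singleton_iff.2 (hz' q hq)
  obtain ⟨h5, h6⟩ := even_of_rel hb hab
  exact not_solv_of_rel h0 ha hb hab (hmem a haL h5) (hmem b hbL h6) (solv_map π (solv_of_le h2 h1))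

section Coind
variable {α : Type*} {H : Type*} [Group H] (π : H →* Perm α) (p : ℕ)

/-- The module coinduced from `Ω₁(Z(ker π))`. -/
def coW : Subgroup (Perm α → H) where
  carrier := {f | (∀ g, f g ∈ π.ker ∧ (∀ k ∈ π.ker, k * f g = f g * k) ∧ f g ^ p = 1) ∧
    ∀ h g, f (π h * g) = h * f g * h⁻¹}
  one_mem' := ⟨fun g => ⟨one_mem _, by simp, by simp⟩, by simp⟩
  mul_mem' := by
    rintro f f' ⟨h1, h2⟩ ⟨h3, h4⟩
    refine ⟨fun g => ⟨mul_mem (h1 g).1 (h3 g).1, fun k hk => ?_, ?_⟩, fun h g => ?_⟩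
    · rw [Pi.mul_apply, ← mul_assoc, (h1 g).2.1 k hk, mul_assoc, (h3 g).2.1 k hk, mul_assoc]
    · have : Commute (f g) (f' g) := (h3 g).2.1 _ (h1 g).1
      rw [Pi.mul_apply, this.mul_pow, (h1 g).2.2, (h3 g).2.2, one_mul]
    · rw [Pi.mul_apply, Pi.mul_apply, h2, h4]; group
  inv_mem' := by
    rintro f ⟨h1, h2⟩
    refine ⟨fun g => ⟨inv_mem (h1 g).1, fun k hk => ?_, ?_⟩, fun h g => ?_⟩
    · have : Commute k (f g) := (h1 g).2.1 k hk
      exact this.inv_right
    · rw [Pi.inv_apply, inv_pow, (h1 g).2.2, inv_one]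
    · rw [Pi.inv_apply, Pi.inv_apply, h2]; group

/-- The coinduced module is abelian. -/
@[reducible] def coWComm : CommGroup (coW π p) :=
  { (inferInstance : Group (coW π p)) with
    mul_comm := fun f f' => Subtype.ext (funext fun g => (f'.2.1 g).2.1 _ (f.2.1 g).1) }

/-- The action of the symmetric group on the coinduced module. -/
@[reducible] def coWAct : DistribMulAction (Perm α) (Additive (coW π p)) where
  smul s f := Additive.ofMul ⟨fun g => (Additive.toMul f).1 (g * s), fun g => (Additive.toMul f).2.1 _,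
    fun h g => by beta_reduce; rw [mul_assoc (π h), (Additive.toMul f).2.2]⟩
  one_smul f := by
    change Additive.ofMul _ = f
    simp
  mul_smul s t f := by
    change Additive.ofMul _ = Additive.ofMul _
    refine congrArg _ (Subtype.ext (funext fun g => ?_))
    change (Additive.toMul f).1 (g * (s * t)) = (Additive.toMul f).1 (g * s * t)
    rw [mul_assoc]
  smul_zero _ := rfl
  smul_add _ _ _ := rfl

theorem exists_coW [Fintype α] [DecidableEq α] {z : H} (h1 : z ∈ π.ker) (h2 : ∀ k ∈ π.ker, k * z = z * k)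
    (h3 : z ^ p = 1) (h4 : z ≠ 1) : ∃ f : coW π p, f ≠ 1 := by
  classical
  have key : ∀ c c' : H, π c = π c' → c * z * c⁻¹ = c' * z * c'⁻¹ := fun c c' e => by
    have := h2 (c'⁻¹ * c) (by rw [MonoidHom.mem_ker, map_mul, map_inv, e, inv_mul_cancel])
    calc c * z * c⁻¹ = c' * (c'⁻¹ * c * z) * c⁻¹ := by group
      _ = _ := by rw [this]; group
  refine ⟨⟨fun g => if h : ∃ c, π c = g then h.choose * z * h.choose⁻¹ else 1, fun g => ?_, fun h g => ?_⟩, ?_⟩
  · beta_reduce
    split_ifs with hg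
    · refine ⟨Normal.conj_mem inferInstance z h1 _, fun k hk => ?_, by rw [conj_pow, h3]; simp⟩
      have := h2 (hg.choose⁻¹ * k * hg.choose⁻¹⁻¹) (Normal.conj_mem inferInstance k hk _)
      calc k * (hg.choose * z * hg.choose⁻¹) =
          hg.choose * (hg.choose⁻¹ * k * hg.choose⁻¹⁻¹ * z) * hg.choose⁻¹ := by group
        _ = _ := by rw [this]; group
    · exact ⟨one_mem _, by simp, by simp⟩
  · by_cases hg : ∃ c, π c = g
    · have hg' : ∃ c, π c = π h * g := ⟨h * hg.choose, by rw [map_mul, hg.choose_spec]⟩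
      simp only [dif_pos hg, dif_pos hg']
      rw [key hg'.choose (h * hg.choose) (by rw [map_mul, hg.choose_spec, hg'.choose_spec])]
      group
    · have hg' : ¬ ∃ c, π c = π h * g := fun ⟨c, hc⟩ => hg ⟨h⁻¹ * c, by rw [map_mul, map_inv, hc]; group⟩
      simp only [dif_neg hg, dif_neg hg']
      group
  · intro e
    have h5 : ∃ c, π c = 1 := ⟨1, map_one π⟩
    have := congrFun (congrArg Subtype.val e) 1
    simp only [dif_pos h5] at this
    exact h4 (by simpa using this)

end Coind

/-- The modular case. -/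
theorem false_of_mod {p n : ℕ} [NeZero n] (hp : p.Prime) (hp1 : p ≤ 16) (hn : 2 ≤ n) (hn' : n ≤ 10)
    (hM : ∀ (V : Type u) [AddCommGroup V] [DistribMulAction (Perm (Fin n)) V], Ctx n p V → HV n V → ∀ v : V, v = 0)
    {H : Type u} [Group H] [Finite H] (h : SC p H) {π : H →* Perm (Fin n)} (hπ : π.range = alternatingGroup (Fin n))
    (hK : IsPGroup p π.ker) (hZ : ∀ z ∈ π.ker, z ∈ center H → z = 1) (hne : π.ker ≠ ⊥) : False := by
  haveI := Fact.mk hp
  haveI : Nontrivial π.ker := (nontrivial_iff_ne_bot _).2 hne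
  haveI := hK.center_nontrivial
  obtain ⟨z, hz⟩ := exists_prime_orderOf_dvd_card' (G := center π.ker) p (by
    obtain ⟨k, hk, hk'⟩ := (hK.to_subgroup (center π.ker)).nontrivial_iff_card.1 inferInstance
    rw [hk']; exact dvd_pow_self p hk.ne')
  obtain ⟨f, hf⟩ := exists_coW π p (z := ((z : π.ker) : H)) (z : π.ker).2
    (fun k hk => congrArg Subtype.val (mem_center_iff.1 z.2 ⟨k, hk⟩))
    (by rw [← hz, ← orderOf_coe, ← orderOf_coe, pow_orderOf_eq_one])
    (fun e => by
      have : z = 1 := Subtype.ext (Subtype.ext e)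
      rw [this, orderOf_one] at hz
      exact hp.one_lt.ne hz)
  letI := coWComm π p
  letI := coWAct π p
  refine hf (hM (Additive (coW π p)) ⟨fun v => ?_, hp.two_le, hp1, hn, hn'⟩ ?_ (Additive.ofMul f))
  · change Additive.ofMul ((Additive.toMul v) ^ p) = Additive.ofMul 1
    congr 1
    exact Subtype.ext (funext fun g => ((Additive.toMul v).2.1 g).2.2)
  · intro a b h0 ha hb hab v hav hbv
    change Additive.ofMul (Additive.toMul v) = Additive.ofMul 1
    congr 1
    refine Subtype.ext (funext fun g => ?_)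
    set w := (Additive.toMul v).1 g with hw
    change w = 1
    by_contra hw1
    obtain ⟨h5, h6, h7⟩ := (Additive.toMul v).2.1 g
    have hs := h w (fun hc => hw1 (hZ w h5 hc)) ⟨1, by rw [pow_one]; exact orderOf_eq_prime h7 hw1⟩
    have key : ∀ s ∈ alternatingGroup (Fin n), s • v = v → g * s * g⁻¹ ∈ (centralizer {w}).map π := by
      intro s hs hsv
      obtain ⟨c, hc⟩ : g * s * g⁻¹ ∈ π.range := hπ ▸ Normal.conj_mem inferInstance s hs g
      refine ⟨c, mem_centralizer_singleton_iff.2 ?_, hc⟩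
      have e1 : (Additive.toMul v).1 (g * s) = w := congrFun (congrArg (fun t => (Additive.toMul t).1) hsv) g
      have e2 := (Additive.toMul v).2.2 c g
      rw [hc, inv_mul_cancel_right, e1, ← hw] at e2
      exact (eq_mul_inv_iff_mul_eq.1 e2).symm
    obtain ⟨h8, h9⟩ := even_of_rel hb hab
    refine not_solv_of_rel (a := g * a * g⁻¹) (b := g * b * g⁻¹) (by simpa using h0) (by rw [conj_pow, ha]; simp)
      (by rw [conj_pow, hb]; simp) ?_ (key a h8 hav) (key b h9 hbv) (solv_map π hs)
    rw [show g * a * g⁻¹ * (g * b * g⁻¹) = g * (a * b) * g⁻¹ by group, conj_pow, hab]; simp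

/-- An alternating section of smaller degree. -/
theorem exists_sec {d : ℕ} {K : Type u} [Group K] (φ : K →* alternatingGroup (Fin d)) (hφ : Function.Surjective φ)
    (α : Type) [Fintype α] [DecidableEq α] (hα : Fintype.card α ≤ d) :
    ∃ (H : Subgroup K) (π : H →* Perm α), π.range = alternatingGroup α := by
  classical
  obtain ⟨ι⟩ : Nonempty (α ↪ Fin d) := Function.Embedding.nonempty_of_card_le (by simpa using hα)
  set j := Perm.extendDomainHom (ofInjective ι.1 ι.2)
  have hj : Function.Injective j := Perm.extendDomainHom_injective _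
  set ψ := (alternatingGroup (Fin d)).subtype.comp φ
  have hs : ∀ s, Perm.sign (j s) = Perm.sign s := fun s => Perm.sign_extendDomain s (ofInjective ι.1 ι.2)
  refine ⟨j.range.comap ψ, (MonoidHom.ofInjective hj).symm.toMonoidHom.comp
    ((ψ.domRestrict _).codRestrict j.range fun g => g.2), ?_⟩
  ext s
  constructor
  · rintro ⟨g, rfl⟩
    rw [Perm.mem_alternatingGroup, ← hs]
    have : j ((MonoidHom.ofInjective hj).symm ⟨ψ g, g.2⟩) = ψ g := MonoidHom.apply_ofInjective_symm hj _
    exact this ▸ (φ g).2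
  · intro h
    obtain ⟨g, hg⟩ := hφ ⟨j s, by rw [Perm.mem_alternatingGroup, hs]; exact h⟩
    have hg' : ψ g = j s := congrArg Subtype.val hg
    refine ⟨⟨g, ⟨s, hg'.symm⟩⟩, hj ?_⟩
    exact (MonoidHom.apply_ofInjective_symm hj ⟨ψ g, ⟨s, hg'.symm⟩⟩).trans hg'

theorem no_sec_two (H : Type u) [Group H] [Finite H] (h : SC 2 H) (π : H →* Perm (Fin 9))
    (hπ : π.range = alternatingGroup (Fin 9)) : False := by
  refine red Nat.prime_two _ (fun H _ _ h π hπ hK hZ => ?_) H h π hπ
  by_cases hne : π.ker = ⊥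
  · exact false_of_coprime Nat.prime_two (by simp) h hπ hK (x := swap 5 6 * swap 7 8) (a := swap 0 1 * swap 2 3)
      (b := swap 0 2 * swap 2 4) (L := centralizer {swap 5 6 * swap 7 8}) (by simp) (by decide) (by decide) (by decide)
      (by decide) (by decide) (by decide +kernel) (mem_centralizer_singleton_iff.2 (by decide))
      (mem_centralizer_singleton_iff.2 (by decide)) (fun g hg => mem_centralizer_singleton_iff.1 hg) (Or.inl hne)
  · exact false_of_mod Nat.prime_two (by norm_num) (by norm_num) (by norm_num)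
      (fun V _ _ C hV v => a9B0 C hV v (Sat.nil v)) h hπ hK hZ hne

theorem no_sec_five (H : Type u) [Group H] [Finite H] (h : SC 5 H) (π : H →* Perm (Fin 10))
    (hπ : π.range = alternatingGroup (Fin 10)) : False := by
  refine red Nat.prime_five _ (fun H _ _ h π hπ hK hZ => ?_) H h π hπ
  by_cases hne : π.ker = ⊥
  · exact false_of_coprime Nat.prime_five (by simp) h hπ hK (x := swap 5 6 * swap 6 7 * swap 7 8 * swap 8 9)
      (a := swap 0 1 * swap 2 3)
      (b := swap 0 2 * swap 2 4) (L := centralizer {swap 5 6 * swap 6 7 * swap 7 8 * swap 8 9}) (by simp) (by decide)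
      (by decide) (by decide)
      (by decide) (by decide) (by decide +kernel) (mem_centralizer_singleton_iff.2 (by decide))
      (mem_centralizer_singleton_iff.2 (by decide)) (fun g hg => mem_centralizer_singleton_iff.1 hg) (Or.inl hne)
  · exact false_of_mod Nat.prime_five (by norm_num) (by norm_num) (by norm_num)
      (fun V _ _ C hV v => a10K0 C hV v (Sat.nil v)) h hπ hK hZ hne

theorem no_sec_big {p : ℕ} [hp : Fact p.Prime] (h7 : 7 ≤ p) (H : Type u) [Group H] [Finite H] (h : SC p H)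
    (π : H →* Perm (Fin 5 ⊕ ZMod p)) (hπ : π.range = alternatingGroup (Fin 5 ⊕ ZMod p)) : False := by
  refine red hp.out _ (fun H _ _ h π hπ hK _ => ?_) H h π hπ
  set j : Perm (Fin 5) →* Perm (Fin 5 ⊕ ZMod p) := (Perm.sumCongrHom _ _).comp (MonoidHom.inl _ _)
  set i : Perm (ZMod p) →* Perm (Fin 5 ⊕ ZMod p) := (Perm.sumCongrHom _ _).comp (MonoidHom.inr _ _)
  have hj : Function.Injective j := Perm.sumCongrHom_injective.comp fun a b e => congrArg Prod.fst e
  have hi : Function.Injective i := Perm.sumCongrHom_injective.comp fun a b e => congrArg Prod.snd e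
  have hxp : i (Equiv.addLeft 1) ^ p = 1 := by
    have h1 : ∀ k : ℕ, (Equiv.addLeft (1 : ZMod p)) ^ k = Equiv.addLeft (k : ZMod p) := fun k => by
      induction k with
      | zero => ext; simp
      | succ k ih => rw [pow_succ, ih]; ext; simp [add_assoc]
    have : Equiv.addLeft ((p : ℕ) : ZMod p) = 1 := by ext; simp
    rw [← map_pow, h1, this, map_one]
  refine false_of_coprime hp.out (by simp; omega) h hπ hK (x := i (Equiv.addLeft 1)) (a := j (swap 0 1 * swap 2 3))
    (b := j (swap 0 2 * swap 2 4)) (L := j.range) ?_ ?_ hxp ?_ ?_ ?_ ?_ ⟨_, rfl⟩ ⟨_, rfl⟩ ?_ (Or.inr ?_)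
  · obtain ⟨k, hk⟩ := hp.out.odd_of_ne_two (by omega)
    have := congrArg Perm.sign hxp
    rw [map_pow, map_one] at this
    rw [Perm.mem_alternatingGroup]
    generalize Perm.sign (i (Equiv.addLeft 1)) = g at this
    rwa [hk, pow_succ, pow_mul, Int.units_sq, one_pow, one_mul] at this
  · rw [Ne, map_eq_one_iff _ hi]
    intro e
    simpa using DFunLike.congr_fun e 0
  · rw [Ne, map_eq_one_iff _ hj]; decide
  · rw [← map_pow, map_eq_one_iff _ hj]; decide
  · rw [← map_pow, map_eq_one_iff _ hj]; decide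
  · rw [← map_mul, ← map_pow, map_eq_one_iff _ hj]; decide +kernel
  · rintro _ ⟨g, rfl⟩
    simp only [i, j, MonoidHom.comp_apply, ← map_mul]
    simp
  · rw [← Nat.card_congr (MonoidHom.ofInjective hj).toEquiv, Nat.card_perm, Nat.card_fin]
    exact (hp.out.coprime_iff_not_dvd).2 fun hd => by
      have := (hp.out.dvd_factorial).1 hd
      omega

end Cfsg.Lib.AltC
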